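import Cfsg.Agent.H584.F4.Span
import Cfsg.Agent.H181.TC.Act
import Cfsg.Agent.H590.F4.P4

/-!
# The complement `D` from a model of the layer `2^8` (S2491, QS row F4, box P4a; helper584)

`DF_of_model` : if `p : Multiplicative V →* ²E₆(2)` is an isomorphism of the quadratic space `V` of minus type onto the layer
`V2 φ`, the elements of `P₄` act by isometries, and the singular vectors are root elements, then there is `D` with `DF φ π D`.
-/

set_option autoImplicit false

namespace Cfsg.Agent.H584.F4.Mod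

open Cfsg.Agent.BabyU.Lab Cfsg.Agent.H584.F4.Can Cfsg.Agent.H584.F4.Span
open Cfsg.Agent.H181.O8m Cfsg.Agent.H231.QF Cfsg.Agent.H590.F4
open Cfsg.Agent.LieClassical.OrthCore

universe u v

/-- the eight singular basis vectors `e₁, f₁, e₂, f₂, e₃, f₃, n₁ + e₁ + f₁, n₂ + e₁ + f₁` -/
def bv (i : ℕ) : ℕ := [1, 16, 2, 32, 4, 64, 25, 145].getD i 0

/-- coordinates to codes -/
def conv (c : ℕ) : ℕ := (List.range 8).foldr (fun i a => (if c.testBit i then bv i else 0) ^^^ a) 0

/-- codes to coordinates: `e₁ + (n₁) + (n₂)`, ... -/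
def cinv (a : ℕ) : ℕ :=
  let n1 := a.testBit 3
  let n2 := a.testBit 7
  (if a.testBit 0 ^^ n1 ^^ n2 then 1 else 0) ^^^ (if a.testBit 4 ^^ n1 ^^ n2 then 2 else 0) ^^^
    (if a.testBit 1 then 4 else 0) ^^^ (if a.testBit 5 then 8 else 0) ^^^ (if a.testBit 2 then 16 else 0) ^^^
    (if a.testBit 6 then 32 else 0) ^^^ (if n1 then 64 else 0) ^^^ (if n2 then 128 else 0)

theorem conv_lt : ∀ c < 256, conv c < 256 := by decide +kernel

theorem conv_inj : ∀ c < 256, conv c = 0 → c = 0 := by decide +kernel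

theorem conv_cinv : ∀ a < 256, conv (cinv a) = a ∧ cinv a < 256 := by decide +kernel

theorem conv_q : ∀ c < 256, qn (conv c) = qf c := by decide +kernel

theorem bv_fact : ∀ i < 8, bv i < 256 ∧ bv i ≠ 0 ∧ qn (bv i) = false := by decide +kernel

theorem prod_ofAdd (l : List ℕ) (c : ℕ) :
    (l.map fun i => if c.testBit i then Multiplicative.ofAdd (dec (bv i)) else 1).prod =
      Multiplicative.ofAdd (dec (l.foldr (fun i a => (if c.testBit i then bv i else 0) ^^^ a) 0)) := by
  induction l with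
  | nil => rw [List.map_nil, List.prod_nil, List.foldr_nil, dec_zero]; rfl
  | cons i l ih =>
    rw [List.map_cons, List.prod_cons, ih, List.foldr_cons, dec_xor, ofAdd_add]
    congr 1
    split
    · rfl
    · rw [dec_zero]; rfl

section

variable {F : Type u} [Field F] {φ : F →+* F} {p : Multiplicative V →* KK F}

/-- products of the basis vectors -/
theorem pr_eq (c : ℕ) : pr (fun i => p (.ofAdd (dec (bv i)))) c = p (.ofAdd (dec (conv c))) := by
  have h1 : p (pr (fun i => Multiplicative.ofAdd (dec (bv i))) c) = pr (fun i => p (.ofAdd (dec (bv i)))) c :=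
    map_pr p _ c
  rw [← h1]
  congr 1
  exact prod_ofAdd _ c

theorem sg_dec {c : ℕ} (hc : Sg c) : dec (conv c) ≠ 0 ∧ q (dec (conv c)) = 0 := by
  obtain ⟨h1, h2, h3⟩ := hc
  constructor
  · intro h
    refine h2 (conv_inj c h1 (dec_inj (conv_lt c h1) (by norm_num) ?_))
    rw [h, dec_zero]
  · rw [q_dec, conv_q c h1, h3]; rfl

theorem exists_sg {v : V} (hv : v ≠ 0) (hq : q v = 0) : ∃ c, Sg c ∧ dec (conv c) = v := by
  obtain ⟨a, ha, rfl⟩ := dec_surj v
  obtain ⟨h1, h2⟩ := conv_cinv a ha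
  refine ⟨cinv a, ⟨h2, ?_, ?_⟩, by rw [h1]⟩
  · intro h
    apply hv
    rw [← h1, h]
    exact congrArg dec (by decide : conv 0 = 0) |>.trans dec_zero
  · rw [← conv_q _ h2, h1]
    rw [q_dec] at hq
    cases h : qn a
    · rfl
    · rw [h] at hq; exact absurd hq (by decide)

/-- **`D` from a model of the layer.** -/
theorem DF_of_model (hp : Function.Injective p) (hpr : p.range = V2 φ)
    (hact : ∀ g ∈ P φ j4, ∃ s : ↥O8, ∀ v : V, g * p (.ofAdd v) * g⁻¹ = p (.ofAdd ((s : V ≃ₗ[ZMod 2] V) v)))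
    (hroot : ∀ v : V, v ≠ 0 → q v = 0 → p (.ofAdd v) ∈ Cfsg.Agent.BabyU.rootClass F)
    {L : Type v} [Group L] {π : L →* KK F} (C : Cen π (Cfsg.Agent.BabyU.rootClass F)) :
    ∃ D : Subgroup L, DF φ π D := by
  have hcomm : ∀ a b : Multiplicative V, p a * p b = p b * p a := fun a b => by
    rw [← map_mul, ← map_mul, mul_comm]
  obtain ⟨D, h1, h2, h3⟩ := exists_D_of C (k := fun i => p (.ofAdd (dec (bv i)))) (V := V2 φ)
    (P := fun g => g ∈ P φ j4) (fun i _ j _ => hcomm _ _)
    (fun c hc => by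
      rw [pr_eq]
      exact hroot _ (sg_dec hc).1 (sg_dec hc).2)
    (fun c hc h => by
      rw [pr_eq] at h
      have h4 : Multiplicative.ofAdd (dec (conv c)) = 1 := hp (h.trans (map_one p).symm)
      refine conv_inj c hc (dec_inj (conv_lt c hc) (by norm_num) ?_)
      rw [dec_zero]
      exact Multiplicative.ofAdd.injective h4)
    (fun x => by
      rw [← hpr, MonoidHom.mem_range]
      constructor
      · rintro ⟨v, rfl⟩
        obtain ⟨a, ha, e⟩ := dec_surj v.toAdd
        refine ⟨cinv a, ?_⟩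
        rw [pr_eq, (conv_cinv a ha).1, e]
        rfl
      · rintro ⟨c, rfl⟩
        exact ⟨_, (pr_eq c).symm⟩)
    (fun g hg i hi => by
      obtain ⟨s, hs⟩ := hact g hg
      obtain ⟨b1, b2, b3⟩ := bv_fact i hi
      have h4 : (s : V ≃ₗ[ZMod 2] V) (dec (bv i)) ≠ 0 := by
        intro h
        rw [LinearEquiv.map_eq_zero_iff] at h
        exact b2 (dec_inj b1 (by norm_num) (h.trans dec_zero.symm))
      have h5 : q ((s : V ≃ₗ[ZMod 2] V) (dec (bv i))) = 0 := by
        have := s.2 (dec (bv i))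
        rw [q_dec, b3] at this
        exact this
      obtain ⟨c, hc, e⟩ := exists_sg h4 h5
      refine ⟨c, hc, ?_⟩
      rw [pr_eq, e]
      exact hs _)
  exact ⟨D, ⟨h1, h2, h3⟩⟩

end

end Cfsg.Agent.H584.F4.Mod
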