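import Cfsg.Agent.H584.F4.Can

/-!
# The complement of the kernel in the preimage of the layer `2^8` (S2491, QS row F4, box P4a; helper584)

The polar space of `O₈⁻(2)` is generated by eight points: `tri` lists the lines used.

* `w_pr` : the canonical lifts of the 119 singular vectors are products of the canonical lifts of eight of them;
* `exists_D_of` : the subgroup `D`.
-/

set_option autoImplicit false

namespace Cfsg.Agent.H584.F4.Span

open Cfsg.Agent.BabyU.Lab Cfsg.Agent.H584.F4.Can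

/-- product of the `g i` over the binary digits of `c` -/
def pr {G : Type*} [Group G] (g : ℕ → G) (c : ℕ) : G :=
  ((List.range 8).map fun i => if c.testBit i then g i else 1).prod

theorem prod_xor {G : Type*} [Group G] {g : ℕ → G} (l : List ℕ) (hc : ∀ i ∈ l, ∀ j ∈ l, g i * g j = g j * g i)
    (h2 : ∀ i ∈ l, g i * g i = 1) (a b : ℕ) :
    (l.map fun i => if a.testBit i then g i else 1).prod * (l.map fun i => if b.testBit i then g i else 1).prod =
      (l.map fun i => if (a ^^^ b).testBit i then g i else 1).prod := by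
  induction l with
  | nil => simp
  | cons i l ih =>
    have hih := ih (fun j hj k hk => hc j (List.mem_cons_of_mem _ hj) k (List.mem_cons_of_mem _ hk))
      (fun j hj => h2 j (List.mem_cons_of_mem _ hj))
    rw [List.map_cons, List.map_cons, List.map_cons, List.prod_cons, List.prod_cons, List.prod_cons, ← hih]
    obtain ⟨A, hA⟩ : ∃ A, A = (l.map fun i => if a.testBit i then g i else 1).prod := ⟨_, rfl⟩
    have hcA : ∀ j ∈ i :: l, g j * A = A * g j := by
      intro j hj
      have : Commute (g j) A := by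
        rw [hA]
        refine Commute.list_prod_right _ _ ?_
        intro x hx
        obtain ⟨k, hk, rfl⟩ := List.mem_map.1 hx
        split
        · exact hc j hj k (List.mem_cons_of_mem _ hk)
        · exact Commute.one_right _
      exact this
    rw [← hA]
    have h4 := h2 i List.mem_cons_self
    have h5 := hcA i List.mem_cons_self
    rw [Nat.testBit_xor]
    cases ha : a.testBit i <;> cases hb : b.testBit i
    · simp [mul_assoc]
    · simp only [Bool.false_eq_true, if_false, if_true, Bool.false_xor, one_mul]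
      rw [← mul_assoc, ← h5, mul_assoc]
    · simp [mul_assoc]
    · simp only [if_true, Bool.xor_self, Bool.false_eq_true, if_false, one_mul]
      rw [mul_assoc, ← mul_assoc A, ← h5, mul_assoc (g i) A, ← mul_assoc (g i) (g i), h4, one_mul]

theorem pr_xor {G : Type*} [Group G] {g : ℕ → G} (hc : ∀ i < 8, ∀ j < 8, g i * g j = g j * g i)
    (h2 : ∀ i < 8, g i * g i = 1) (a b : ℕ) : pr g a * pr g b = pr g (a ^^^ b) :=
  prod_xor _ (fun i hi j hj => hc i (List.mem_range.1 hi) j (List.mem_range.1 hj))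
    (fun i hi => h2 i (List.mem_range.1 hi)) a b

theorem map_pr {G H : Type*} [Group G] [Group H] (f : G →* H) (g : ℕ → G) (c : ℕ) :
    f (pr g c) = pr (fun i => f (g i)) c := by
  unfold pr
  rw [map_list_prod, List.map_map]
  congr 1
  refine List.map_congr_left fun i _ => ?_
  simp only [Function.comp]
  split
  · rfl
  · exact map_one f

theorem pr_congr {G : Type*} [Group G] {g g' : ℕ → G} (h : ∀ i < 8, g i = g' i) (c : ℕ) : pr g c = pr g' c := by
  unfold pr
  congr 1
  refine List.map_congr_left fun i hi => ?_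
  rw [h i (List.mem_range.1 hi)]

theorem pr_zero {G : Type*} [Group G] (g : ℕ → G) : pr g 0 = 1 := by
  simp [pr]

/-- the low digits -/
theorem pr_mod {G : Type*} [Group G] (g : ℕ → G) (c : ℕ) : pr g (c % 256) = pr g c := by
  unfold pr
  congr 1
  refine List.map_congr_left fun i hi => ?_
  rw [show (256 : ℕ) = 2 ^ 8 from rfl, Nat.testBit_mod_two_pow, decide_eq_true (List.mem_range.1 hi), Bool.true_and]

theorem pr_two {G : Type*} [Group G] (g : ℕ → G) : ∀ i < 8, pr g (2 ^ i) = g i := by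
  intro i hi
  have h : ∀ i < 8, ∀ j < 8, (2 ^ i).testBit j = decide (i = j) := by decide
  unfold pr
  have e : ((List.range 8).map fun j => if (2 ^ i).testBit j then g j else 1) =
      (List.range 8).map fun j => if i = j then g j else 1 := by
    refine List.map_congr_left fun j hj => ?_
    rw [h i hi j (List.mem_range.1 hj)]
    simp
  rw [e]
  interval_cases i <;> simp [List.range_succ]

/-- the quadratic form (graph form, eight singular basis vectors) -/
def edges : List (ℕ × ℕ) := [(0, 1), (2, 3), (4, 5), (6, 7), (0, 6), (1, 6), (0, 7), (1, 7)]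

/-- `qf c = true` : `c` is not singular -/
def qf (c : ℕ) : Bool := edges.foldl (fun b e => xor b (c.testBit e.1 && c.testBit e.2)) false

/-- the lines -/
def tri : List (ℕ × ℕ × ℕ) := [
  (5, 1, 4), (9, 1, 8), (17, 1, 16), (33, 1, 32), (6, 2, 4), (10, 2, 8), (18, 2, 16), (34, 2, 32), (20, 4, 16),
  (36, 4, 32), (68, 4, 64), (132, 4, 128), (24, 8, 16), (40, 8, 32), (72, 8, 64), (136, 8, 128), (80, 16, 64),
  (144, 16, 128), (96, 32, 64), (160, 32, 128), (21, 1, 20), (37, 1, 36), (25, 1, 24), (41, 1, 40), (22, 2, 20),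
  (38, 2, 36), (26, 2, 24), (42, 2, 40), (84, 4, 80), (148, 4, 144), (100, 4, 96), (164, 4, 160), (88, 8, 80),
  (152, 8, 144), (104, 8, 96), (168, 8, 160), (15, 5, 10), (77, 5, 72), (141, 5, 136), (51, 17, 34), (113, 17, 96),
  (177, 17, 160), (78, 6, 72), (142, 6, 136), (114, 18, 96), (178, 18, 160), (60, 20, 40), (204, 68, 136),
  (240, 80, 160), (79, 1, 78), (143, 1, 142), (115, 1, 114), (179, 1, 178), (61, 1, 60), (205, 1, 204),
  (241, 1, 240), (62, 2, 60), (206, 2, 204), (242, 2, 240), (55, 4, 51), (117, 4, 113), (181, 4, 177),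
  (118, 4, 114), (182, 4, 178), (244, 4, 240), (59, 8, 51), (121, 8, 113), (185, 8, 177), (122, 8, 114),
  (186, 8, 178), (248, 8, 240), (31, 16, 15), (93, 16, 77), (157, 16, 141), (94, 16, 78), (158, 16, 142),
  (220, 16, 204), (47, 32, 15), (109, 32, 77), (173, 32, 141), (110, 32, 78), (174, 32, 142), (236, 32, 204),
  (124, 64, 60), (188, 128, 60), (119, 5, 114), (183, 5, 178), (245, 5, 240), (123, 9, 114), (187, 9, 178),
  (249, 9, 240), (95, 17, 78), (159, 17, 142), (221, 17, 204), (111, 33, 78), (175, 33, 142), (237, 33, 204),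
  (246, 6, 240), (250, 10, 240), (222, 18, 204), (238, 34, 204), (195, 15, 204), (255, 15, 240), (199, 4, 195),
  (203, 8, 195), (211, 16, 195), (227, 32, 195), (219, 5, 222), (235, 5, 238), (215, 9, 222), (231, 9, 238)]

/-- a nonzero singular vector -/
def Sg (c : ℕ) : Prop := c < 256 ∧ c ≠ 0 ∧ qf c = false

/-- Boolean form -/
def sgb (c : ℕ) : Bool := Nat.blt c 256 && !(Nat.beq c 0) && !(qf c)

theorem sgb_iff (c : ℕ) : sgb c = true ↔ Sg c := by
  unfold sgb Sg
  rw [Bool.and_eq_true, Bool.and_eq_true, Nat.blt_eq, Bool.not_eq_true', Bool.not_eq_true']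
  constructor
  · rintro ⟨⟨h1, h2⟩, h3⟩
    exact ⟨h1, fun h => by rw [h] at h2; exact absurd h2 (by decide), h3⟩
  · rintro ⟨h1, h2, h3⟩
    refine ⟨⟨h1, ?_⟩, h3⟩
    rw [Bool.eq_false_iff]
    intro h
    exact h2 (Nat.eq_of_beq_eq_true h)

/-- run through the list -/
def run : List ℕ → List (ℕ × ℕ × ℕ) → List ℕ
  | k, [] => k
  | k, (v, a, b) :: l => if (k.contains a && k.contains b) && (Nat.beq v (a ^^^ b) && sgb v) then run (v :: k) l else k

theorem run_sound {Q : ℕ → Prop} (h : ∀ a b, Q a → Q b → Sg (a ^^^ b) → Q (a ^^^ b)) :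
    ∀ (l : List (ℕ × ℕ × ℕ)) (k : List ℕ), (∀ c ∈ k, Q c) → ∀ c ∈ run k l, Q c := by
  intro l
  induction l with
  | nil => intro k hk c hc; exact hk c hc
  | cons x l ih =>
    obtain ⟨v, a, b⟩ := x
    intro k hk c hc
    rw [run] at hc
    split at hc
    · rename_i h1
      rw [Bool.and_eq_true, Bool.and_eq_true, Bool.and_eq_true, List.contains_iff_mem, List.contains_iff_mem] at h1
      refine ih (v :: k) (fun d hd => ?_) c hc
      rcases List.mem_cons.1 hd with rfl | hd
      · have e := Nat.eq_of_beq_eq_true h1.2.1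
        have h2 := (sgb_iff _).1 h1.2.2
        rw [e] at h2 ⊢
        exact h a b (hk a h1.1.1) (hk b h1.1.2) h2
      · exact hk d hd
    · exact hk c hc

theorem run_all : ∀ c < 256, sgb c = true → c ∈ run [1, 2, 4, 8, 16, 32, 64, 128] tri := by decide +kernel

theorem sg_two : ∀ i < 8, Sg (2 ^ i) := by
  have h : ∀ i < 8, sgb (2 ^ i) = true := by decide +kernel
  exact fun i hi => (sgb_iff _).1 (h i hi)

section

variable {L E : Type*} [Group L] [Group E] {π : L →* E} {T : Set E} (C : Cen π T) {k : ℕ → E}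
  (hk : ∀ i < 8, ∀ j < 8, k i * k j = k j * k i) (hT : ∀ c, Sg c → pr k c ∈ T)

include C hT in
theorem k_mem {i : ℕ} (hi : i < 8) : k i ∈ T := by
  rw [← pr_two k i hi]
  exact hT _ (sg_two i hi)

include C hk hT

theorem k_sq : ∀ i < 8, k i * k i = 1 := fun _ hi => C.roots.sq _ (k_mem C hT hi)

theorem w_k_comm : ∀ i < 8, ∀ j < 8, w π T (k i) * w π T (k j) = w π T (k j) * w π T (k i) :=
  fun i hi j hj => w_comm C (k_mem C hT hi) (k_mem C hT hj) (hk i hi j hj)

theorem w_k_sq : ∀ i < 8, w π T (k i) * w π T (k i) = 1 := fun _ hi => w_sq C (k_mem C hT hi)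

/-- **The canonical lifts of the singular vectors.** -/
theorem w_pr (c : ℕ) (hc : Sg c) : w π T (pr k c) = pr (fun i => w π T (k i)) c := by
  have hx := pr_xor hk (k_sq C hk hT)
  have hx' := pr_xor (g := fun i => w π T (k i)) (w_k_comm C hk hT) (w_k_sq C hk hT)
  have key := run_sound (Q := fun c => Sg c ∧ w π T (pr k c) = pr (fun i => w π T (k i)) c)
    (fun a b ha hb hab => ⟨hab, by
      rw [← hx, ← hx', ← ha.2, ← hb.2]
      exact (w_line C (hT _ ha.1) (hT _ hb.1) (by rw [hx]; exact hT _ hab)).symm⟩) tri [1, 2, 4, 8, 16, 32, 64, 128] (by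
    intro c hc
    have h8 : ∀ c ∈ [1, 2, 4, 8, 16, 32, 64, 128], ∃ i < 8, c = 2 ^ i := by decide
    obtain ⟨i, hi, rfl⟩ := h8 c hc
    exact ⟨sg_two i hi, by rw [pr_two _ i hi, pr_two _ i hi]⟩)
  exact (key c (run_all c hc.1 ((sgb_iff c).2 hc))).2

/-- **The complement.** -/
theorem exists_D_of (hinj : ∀ c < 256, pr k c = 1 → c = 0) {V : Subgroup E} (hV : ∀ x, x ∈ V ↔ ∃ c, pr k c = x)
    {P : E → Prop} (hP : ∀ g, P g → ∀ i < 8, ∃ c, Sg c ∧ g * k i * g⁻¹ = pr k c) :
    ∃ D : Subgroup L, (∀ d ∈ D, π d = 1 → d = 1) ∧ D.map π = V ∧ ∀ g, P (π g) → ∀ d ∈ D, g * d * g⁻¹ ∈ D := by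
  have hx' := pr_xor (g := fun i => w π T (k i)) (w_k_comm C hk hT) (w_k_sq C hk hT)
  have hmap : ∀ c, π (pr (fun i => w π T (k i)) c) = pr k c := fun c => by
    rw [map_pr]
    exact pr_congr (fun i hi => map_w C (k_mem C hT hi)) c
  let D : Subgroup L :=
    { carrier := {d | ∃ c, pr (fun i => w π T (k i)) c = d}
      one_mem' := ⟨0, pr_zero _⟩
      mul_mem' := by
        rintro _ _ ⟨a, rfl⟩ ⟨b, rfl⟩
        exact ⟨a ^^^ b, (hx' a b).symm⟩
      inv_mem' := by
        rintro _ ⟨a, rfl⟩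
        refine ⟨a, ?_⟩
        rw [eq_inv_iff_mul_eq_one, hx', Nat.xor_self, pr_zero] }
  refine ⟨D, ?_, ?_, ?_⟩
  · rintro _ ⟨c, rfl⟩ h1
    rw [hmap, ← pr_mod] at h1
    rw [← pr_mod, hinj _ (Nat.mod_lt _ (by norm_num)) h1, pr_zero]
  · ext x
    rw [hV]
    constructor
    · rintro ⟨_, ⟨c, rfl⟩, rfl⟩
      exact ⟨c, (hmap c).symm⟩
    · rintro ⟨c, rfl⟩
      exact ⟨_, ⟨c, rfl⟩, hmap c⟩
  · intro g hg d hd
    obtain ⟨c, rfl⟩ := hd
    have h1 : ∀ i < 8, g * w π T (k i) * g⁻¹ ∈ D := by
      intro i hi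
      obtain ⟨c, hc, e⟩ := hP _ hg i hi
      rw [w_conj C g (k_mem C hT hi), e, w_pr C hk hT c hc]
      exact ⟨c, rfl⟩
    have h2 : g * pr (fun i => w π T (k i)) c * g⁻¹ = pr (fun i => g * w π T (k i) * g⁻¹) c :=
      map_pr (MulAut.conj g).toMonoidHom _ c
    rw [h2]
    unfold pr
    refine Subgroup.list_prod_mem _ ?_
    intro x hx
    obtain ⟨i, hi, rfl⟩ := List.mem_map.1 hx
    split
    · exact h1 i (List.mem_range.1 hi)
    · exact one_mem _

end

end Cfsg.Agent.H584.F4.Span
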