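import Cfsg.Agent.H584.F4.Fus
import Cfsg.Agent.H231.QS.Row2E6
import Cfsg.Agent.H231.QF.Defs

/-!
# The element of order `21` of `²E₆(2)` (S2491, QS row F4, box X21; helper584)

`x = s * f X`, `f : SL₃(2) → ²E₆(2)` the block of the nodes `0`, `1`, `X` of order `7`, `s = Q₃(dg v)` of order `3`.

* `exists_x21` : `x` lies in the Levi subgroup of `P_J` (`J = {0, 1, 2}`), has order `21`, is real, has no fixed points on
  `V_J` and `V_J⁻` (even for `J = {0, 1}`), and in every perfect central extension with kernel of order dividing `12` every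
  lift `y` of `x` is conjugate to `y ζ` for all `ζ` of the kernel with `ζ ^ 3 = 1`.
-/

set_option autoImplicit false
set_option linter.unusedSectionVars false

namespace Cfsg.Agent.H584.F4.X21

open CoxeterSystem Cfsg.Agent.ChevalleyStructure.CoxeterGeom Cfsg.Agent.Tits.Roots Cfsg.Agent.Tits.Core
  Cfsg.Agent.Nodes Cfsg.Agent.Nodes.Reps Cfsg.Agent.Nodes.BNOf Cfsg.Agent.Nodes.RGDLib Cfsg.Agent.Nodes.Bruhat
  Cfsg.Agent.Nodes.OppDec Cfsg.Agent.Nodes.LeviDec Cfsg.Agent.Nodes.StabComb Cfsg.Agent.Nodes.KindChev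
  Cfsg.Agent.Nodes.ChevCls Cfsg.Agent.Nodes.RGDLift
  Cfsg.Agent.OddHalf.NI.ModelChev
  Cfsg.Agent.H928.Ore.TwE Cfsg.Agent.H928.Ore.TwS Cfsg.Agent.H928.Ore.TwF
open Cfsg.Lie Cfsg.Agent.ChevalleyStructure Cfsg.Agent.ChevalleyStructure.Elts
  Cfsg.Agent.ChevalleyStructure.NPerm
  Cfsg.Agent.ChevalleyStructure.CoxeterGeomTypes Cfsg.Agent.Nodes.RGDChev Cfsg.Agent.KFacts.RgdChevCoord
open Cfsg.Agent.Nodes.RGDTwGen Cfsg.Agent.Nodes.RGDFold Cfsg.Agent.Nodes.RGDTwE6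
open Cfsg.Agent.Nodes.RGDFoldSL (Fx mem_Fx psi psi_up psi_lo hv)
open Cfsg.Agent.Nodes.RGDTwNode.E6 (rest)
open Cfsg.Agent.FixBN.FieldRGD (uu vv dd ww)
open Cfsg.Agent.OddHalf.NI.Mult (dg nn up lo dgHom Coord)
open Cfsg.Agent.H162.GaussExcMain (r6 rt6 exists_hom_D)
open Cfsg.Agent.H162.GaussReg (hom_ext)
open Cfsg.Agent.H335.Sr
open Cfsg.Agent.H231.QS.Lift Cfsg.Agent.H231.QS.TwCen
open Cfsg.Agent.H51.Mult (PCE)
open Cfsg.Agent.H584.F4.Fus
open scoped MatrixGroups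

universe u v

/-! ### Group theory -/

/-- `c` of order dividing `7` modulo the centre, commuting with `n` modulo a central element of order dividing `3` -/
theorem comm_seven {E : Type*} [Group E] {n c κ : E} (hκ : ∀ x, x * κ = κ * x) (h3 : κ ^ 3 = 1)
    (h7 : ∀ x, x * c ^ 7 = c ^ 7 * x) (h : n * c * n⁻¹ = c * κ) : κ = 1 := by
  have h1 : (n * c * n⁻¹) ^ 7 = c ^ 7 := by
    rw [conj_pow, h7, mul_inv_cancel_right]
  have h2 : (c * κ) ^ 7 = c ^ 7 * κ ^ 7 := (show Commute c κ from hκ c).mul_pow 7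
  rw [h, h2] at h1
  have h4 : κ ^ 7 = 1 := mul_eq_left.1 h1
  have h5 : κ ^ 7 = (κ ^ 3) ^ 2 * κ := by rw [← pow_mul, ← pow_succ]
  rw [h5, h3, one_pow, one_mul] at h4
  exact h4

/-- **From the quotient modulo the 2-part of the kernel to the group** -/
theorem fuse_lift {L Y : Type*} [Group L] [Finite L] [Group Y] {π : L →* Y} (hc : π.ker ≤ Subgroup.center L)
    (hk : Nat.card π.ker ∣ 12) {N : Subgroup L} [N.Normal] (hN : ∀ z, z ∈ N ↔ z ∈ π.ker ∧ z ^ 4 = 1) {y ζ : L}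
    (hy : y ^ 21 ∈ π.ker) (h3 : ζ ^ 3 = 1) (hζ : ζ ∈ π.ker)
    (h : ∃ k : L ⧸ N, k * (y : L ⧸ N) * k⁻¹ = (y : L ⧸ N) * (ζ : L ⧸ N)) : ∃ k : L, k * y * k⁻¹ = y * ζ := by
  obtain ⟨k, hk⟩ := h
  obtain ⟨k, rfl⟩ := QuotientGroup.mk_surjective k
  have h1 : ((y * ζ)⁻¹ * (k * y * k⁻¹)) ∈ N := by
    rw [← QuotientGroup.eq]
    exact hk.symm
  obtain ⟨w, hw⟩ : ∃ w, w = (y * ζ)⁻¹ * (k * y * k⁻¹) := ⟨_, rfl⟩
  rw [← hw] at h1
  obtain ⟨hw1, hw4⟩ := (hN w).1 h1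
  have h2 : k * y * k⁻¹ = y * ζ * w := by rw [hw]; group
  have hwc : ∀ x, x * w = w * x := Subgroup.mem_center_iff.1 (hc hw1)
  have hζc : ∀ x, x * ζ = ζ * x := Subgroup.mem_center_iff.1 (hc hζ)
  have hyc : ∀ x, x * y ^ 21 = y ^ 21 * x := Subgroup.mem_center_iff.1 (hc hy)
  have h4 : (k * y * k⁻¹) ^ 21 = y ^ 21 := by
    rw [conj_pow, hyc, mul_inv_cancel_right]
  have h5 : (y * ζ * w) ^ 21 = y ^ 21 * w ^ 21 := by
    rw [(show Commute (y * ζ) w from hwc _).mul_pow, (show Commute y ζ from hζc _).mul_pow,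
      show (21 : ℕ) = 3 * 7 from rfl, pow_mul ζ, h3, one_pow, mul_one]
  rw [h2, h5] at h4
  have h6 : w ^ 21 = 1 := mul_eq_left.1 h4
  have h7 : w ^ 21 = (w ^ 4) ^ 5 * w := by rw [← pow_mul, ← pow_succ]
  rw [h7, hw4, one_pow, one_mul] at h6
  exact ⟨k, by rw [h2, h6, mul_one]⟩

/-! ### The matrix of order seven -/

/-- the matrix of order seven -/
def m7 : Matrix.SpecialLinearGroup (Fin 3) (ZMod 2) := ⟨!![0, 0, 1; 1, 0, 1; 0, 1, 0], by decide +kernel⟩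

theorem m7_pow : m7 ^ 7 = 1 := by decide +kernel

open Polynomial in
theorem m7_charpoly : (m7 : Matrix (Fin 3) (Fin 3) (ZMod 2)).charpoly = Polynomial.X ^ 3 - Polynomial.X - 1 := by
  change (!![0, 0, 1; 1, 0, 1; 0, 1, 0] : Matrix (Fin 3) (Fin 3) (ZMod 2)).charpoly = _
  rw [Matrix.charpoly, Matrix.det_fin_three]
  simp only [Matrix.charmatrix_apply, Matrix.diagonal_apply]
  simp
  ring

open Polynomial in
/-- over a field of two elements -/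
theorem exists_seven {F : Type*} [Field F] (h2 : ∀ c : F, c = 0 ∨ c = 1) (hch : (2 : F) = 0) :
    ∃ A : Matrix.SpecialLinearGroup (Fin 3) F, A ^ 7 = 1 ∧ Irreducible (A : Matrix (Fin 3) (Fin 3) F).charpoly := by
  have : CharP F 2 := by
    refine ringChar.of_eq (CharP.ringChar_of_prime_eq_zero Nat.prime_two ?_)
    exact_mod_cast hch
  let g : ZMod 2 →+* F := ZMod.castHom (dvd_refl 2) F
  refine ⟨Matrix.SpecialLinearGroup.map g m7, by rw [← map_pow, m7_pow, map_one], ?_⟩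
  have e : ((Matrix.SpecialLinearGroup.map g m7 : Matrix.SpecialLinearGroup (Fin 3) F) :
      Matrix (Fin 3) (Fin 3) F).charpoly = Polynomial.X ^ 3 - Polynomial.X - 1 := by
    have h1 : ((Matrix.SpecialLinearGroup.map g m7 : Matrix.SpecialLinearGroup (Fin 3) F) :
      Matrix (Fin 3) (Fin 3) F).charpoly = (m7 : Matrix (Fin 3) (Fin 3) (ZMod 2)).charpoly.map g :=
      Matrix.charpoly_map _ _
    rw [h1, m7_charpoly]
    simp
  have hm := Matrix.charpoly_monic ((Matrix.SpecialLinearGroup.map g m7 : Matrix.SpecialLinearGroup (Fin 3) F) :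
      Matrix (Fin 3) (Fin 3) F)
  have hd : ((Matrix.SpecialLinearGroup.map g m7 : Matrix.SpecialLinearGroup (Fin 3) F) :
      Matrix (Fin 3) (Fin 3) F).charpoly.natDegree = 3 := by
    rw [Matrix.charpoly_natDegree_eq_dim, Fintype.card_fin]
  rw [Polynomial.Monic.irreducible_iff_roots_eq_zero_of_degree_le_three hm (by omega) (by omega)]
  by_contra hne
  obtain ⟨x, hx⟩ := Multiset.exists_mem_of_ne_zero hne
  have hx' := (mem_roots hm.ne_zero).1 hx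
  rw [IsRoot.def, e] at hx'
  simp only [eval_sub, eval_pow, eval_X, eval_one] at hx'
  rcases h2 x with rfl | rfl
  · simp at hx'
  · simp at hx'

/-! ### The element -/

section

variable {K : Type u} [Field K] [Fintype K] (hK : Fintype.card K = 4) {φ : K →+* K} (hφ : ∀ t, φ t = t ^ 2)

include hK in
theorem pow_qq (t : K) : (t ^ 2) ^ 2 = t := by
  rw [← pow_mul, show 2 * 2 = 4 from rfl, ← hK]
  exact FiniteField.pow_card t

include hK in
theorem two_zero : (2 : K) = 0 := by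
  have h4 : ((4 : ℕ) : K) = 0 := by rw [← hK]; exact Nat.cast_card_eq_zero K
  have h5 : (2 : K) * 2 = 0 := by
    have : ((4 : ℕ) : K) = 2 * 2 := by norm_num
    rw [← this, h4]
  exact mul_self_eq_zero.1 h5

include hK hφ in
theorem card_fx : Nat.card (Fx φ 2) = 4 := by
  have h5 : (Fx φ 2) = ⊤ := by
    rw [eq_top_iff]
    intro y _
    rw [mem_Fx]
    change φ (φ y) = y
    rw [hφ, hφ, pow_qq hK]
  rw [h5, ← hK, ← Nat.card_eq_fintype_card]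
  exact Nat.card_congr Subfield.topEquiv.toEquiv

include hK hφ in
theorem card_units_fx : Nat.card (Fx φ 2)ˣ = 3 := by
  rw [Nat.card_units, card_fx hK hφ]

include hK hφ in
theorem unit_cube (v : (Fx φ 2)ˣ) : v ^ 3 = 1 := by
  rw [← card_units_fx hK hφ]
  exact pow_card_eq_one'

include hK hφ in
theorem unit_cases {v w : (Fx φ 2)ˣ} (hv : v ≠ 1) (hw : w ≠ 1) : w = v ∨ w = v⁻¹ := by
  have : Fact (Nat.Prime 3) := ⟨Nat.prime_three⟩
  have h1 : w ∈ Subgroup.zpowers v := mem_zpowers_of_prime_card (card_units_fx hK hφ) hv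
  obtain ⟨n, rfl⟩ := h1
  have h3 := unit_cube hK hφ v
  have h4 : (v ^ n : (Fx φ 2)ˣ) = v ^ (n % 3) := by
    conv_lhs => rw [← Int.emod_add_mul_ediv n 3]
    rw [zpow_add, zpow_mul]
    have : (v ^ (3 : ℤ)) = 1 := by exact_mod_cast h3
    rw [this, one_zpow, mul_one]
  have h5 : n % 3 = 0 ∨ n % 3 = 1 ∨ n % 3 = 2 := by omega
  rcases h5 with h5 | h5 | h5
  · exfalso
    apply hw
    change v ^ n = 1
    rw [h4, h5, zpow_zero]
  · left
    change v ^ n = v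
    rw [h4, h5, zpow_one]
  · right
    change v ^ n = v⁻¹
    rw [h4, h5]
    apply eq_inv_of_mul_eq_one_left
    rw [← h3]
    rw [show v ^ (2 : ℤ) = v ^ 2 from by norm_cast, ← pow_succ]

variable (hqq : ∀ t : K, (t ^ 2) ^ 2 = t)
  {P : Matrix.SpecialLinearGroup (Fin 3) K →* ↥(chevE6.group K)}
  (hP : ∀ a b (hab : a ≠ b) c, P (Matrix.SpecialLinearGroup.transvection hab c) =
      xc RGDTwE6.hp (vec chevE6 6 (r6 a b)) (((1 : ℤ) : K) * c))
  {f : Matrix.SpecialLinearGroup (Fin 3) (Fx φ 1) →* ↥(twistedE6 K 2)}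
  (hf : ∀ A, inc K 2 (f A) = P (Matrix.SpecialLinearGroup.map (Fx φ 1).subtype A))

/-- the scalar of the torus element -/
noncomputable def lu (v : (Fx φ 2)ˣ) : Kˣ := Units.map (Fx φ 2).subtype.toMonoidHom v

include hK hφ in
theorem inc_s (v : (Fx φ 2)ˣ) : inc K 2 (Q3 hφ hqq (dg v)) = s0 (lu v) := by
  rw [inc_Q3, map_dg, map_dd, s0_eq]
  have h1 : φ (lu v : K) = (((lu v)⁻¹ : Kˣ) : K) := by
    rw [hφ, Units.val_inv_eq_inv_val]
    apply eq_inv_of_mul_eq_one_left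
    have h2 := congrArg (fun x : (Fx φ 2)ˣ => ((x : Fx φ 2) : K)) (unit_cube hK hφ v)
    change (((v ^ 3 : (Fx φ 2)ˣ) : Fx φ 2) : K) = 1 at h2
    rw [← h2]
    change ((v : Fx φ 2) : K) ^ 2 * ((v : Fx φ 2) : K) = ((v ^ 3 : (Fx φ 2)ˣ) : Fx φ 2)
    push_cast
    ring
  congr 1
  congr 1
  apply Subtype.ext
  change !![φ ((v : Fx φ 2) : K), 0; 0, (φ ((v : Fx φ 2) : K))⁻¹] =
    !![(((lu v)⁻¹ : Kˣ) : K), 0; 0, ((((lu v)⁻¹ : Kˣ) : K))⁻¹]
  rw [← h1]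
  rfl

theorem lu_ne {v : (Fx φ 2)ˣ} (hv : v ≠ 1) : lu v ≠ 1 := by
  intro h
  apply hv
  have h2 := congrArg (fun x : Kˣ => (x : K)) h
  exact Units.ext (Subtype.ext h2)

include hK hφ in
theorem lu_sq {v : (Fx φ 2)ˣ} (hv : v ≠ 1) : lu v * lu v ≠ 1 := by
  intro h
  have h3 : lu v ^ 3 = 1 := by
    have h4 := congrArg (Units.map (Fx φ 2).subtype.toMonoidHom) (unit_cube hK hφ v)
    rw [map_pow, map_one] at h4
    exact h4
  apply lu_ne hv
  rw [pow_succ, pow_two, h, one_mul] at h3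
  exact h3

include hK in
theorem s_cube (v : (Fx φ 2)ˣ) : (Q3 hφ hqq (dg v)) ^ 3 = 1 := by
  have h15 := congrArg (dgHom (F := Fx φ 2)) (unit_cube hK hφ v)
  rw [map_pow, map_one] at h15
  rw [← map_pow]
  change Q3 hφ hqq ((dgHom (F := Fx φ 2) v) ^ 3) = 1
  rw [h15, map_one]

theorem s_ne {v : (Fx φ 2)ˣ} (hv : v ≠ 1) : Q3 hφ hqq (dg v) ≠ 1 := by
  intro h
  apply hv
  have h2 : Q0 hφ hqq (dg 1) * Q1 hφ hqq (dg 1) * Q2 hφ hqq (dg 1) * Q3 hφ hqq (dg v) = 1 := by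
    rw [h, Cfsg.Agent.OddHalf.NI.Mult.dg_one, Cfsg.Agent.OddHalf.NI.Mult.dg_one, map_one, map_one, map_one]
    simp
  obtain ⟨-, -, h3⟩ := ker_tor hφ hqq h2
  have h4 := congrArg (fun x => x⁻¹) h3
  simp only [inv_one, inv_inv] at h4
  exact h4.symm

include hP hf hqq hK in
/-- **The fusion.** -/
theorem fuse {v : (Fx φ 2)ˣ} (hv : v ≠ 1) {X : Matrix.SpecialLinearGroup (Fin 3) (Fx φ 1)} (hX : X ^ 7 = 1)
    {L : Type v} [Group L] [Finite L] {π : L →* ↥(twistedE6 K 2)} (hπ : PCE π) (hk : Nat.card π.ker ∣ 12) {y : L}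
    (hy : π y = Q3 hφ hqq (dg v) * f X) {ζ : L} (hζ : ζ ∈ π.ker) (h3 : ζ ^ 3 = 1) : ∃ k : L, k * y * k⁻¹ = y * ζ := by
  by_cases hζ1 : ζ = 1
  · exact ⟨1, by rw [hζ1]; group⟩
  have : Fact (Nat.Prime 3) := ⟨Nat.prime_three⟩
  have hsf : ∀ A, Q3 hφ hqq (dg v) * f A = f A * Q3 hφ hqq (dg v) :=
    Cfsg.Agent.H928.Ore.TwRow.s_comm hP hf (inc_s hK hφ hqq v)
  obtain ⟨s, hs⟩ : ∃ s, s = Q3 hφ hqq (dg v) := ⟨_, rfl⟩
  have hs3 : s ^ 3 = 1 := by rw [hs]; exact s_cube hK hφ hqq v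
  have hsf' : ∀ A, s * f A = f A * s := by rw [hs]; exact hsf
  have hfX7 : f X ^ 7 = 1 := by rw [← map_pow, hX, map_one]
  have hy21 : y ^ 21 ∈ π.ker := by
    rw [MonoidHom.mem_ker, map_pow, hy, ← hs, (show Commute s (f X) from hsf' X).mul_pow,
      show (21 : ℕ) = 3 * 7 from rfl, pow_mul s, hs3, one_pow, one_mul, mul_comm 3 7, pow_mul, hfX7, one_pow]
  -- the quotient
  let N : Subgroup L :=
    { carrier := {z | z ∈ π.ker ∧ z ^ 4 = 1}
      one_mem' := ⟨one_mem _, one_pow _⟩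
      mul_mem' := by
        rintro a b ⟨ha, ha4⟩ ⟨hb, hb4⟩
        refine ⟨mul_mem ha hb, ?_⟩
        have hab : Commute a b := (Subgroup.mem_center_iff.1 (hπ.cen hb) a)
        rw [hab.mul_pow, ha4, hb4, one_mul]
      inv_mem' := by
        rintro a ⟨ha, ha4⟩
        exact ⟨inv_mem ha, by rw [inv_pow, ha4, inv_one]⟩ }
  have hN : ∀ z, z ∈ N ↔ z ∈ π.ker ∧ z ^ 4 = 1 := fun z => Iff.rfl
  have hNn : N.Normal := by
    refine ⟨fun z hz g => ?_⟩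
    have h1 : g * z * g⁻¹ = z := by
      rw [Subgroup.mem_center_iff.1 (hπ.cen hz.1) g, mul_inv_cancel_right]
    rw [h1]
    exact hz
  have hNk : N ≤ π.ker := fun z hz => hz.1
  refine fuse_lift hπ.cen hk (N := N) hN hy21 h3 hζ ?_
  let πE : L ⧸ N →* ↥(twistedE6 K 2) := QuotientGroup.lift N π hNk
  have hπE : ∀ z : L, πE (z : L ⧸ N) = π z := fun z => rfl
  have hsur : Function.Surjective πE := fun g => by
    obtain ⟨z, hz⟩ := hπ.surj g
    exact ⟨z, hz⟩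
  have hcen : πE.ker ≤ Subgroup.center (L ⧸ N) := by
    intro z hz
    obtain ⟨z, rfl⟩ := QuotientGroup.mk_surjective z
    rw [Subgroup.mem_center_iff]
    intro g
    obtain ⟨g, rfl⟩ := QuotientGroup.mk_surjective g
    have hz' : z ∈ π.ker := hz
    change ((g * z : L) : L ⧸ N) = ((z * g : L) : L ⧸ N)
    rw [Subgroup.mem_center_iff.1 (hπ.cen hz') g]
  have hperf : commutator (L ⧸ N) = ⊤ := by
    have h1 : (commutator L).map (QuotientGroup.mk' N) = commutator (L ⧸ N) := by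
      rw [commutator_def, commutator_def, Subgroup.map_commutator, ← MonoidHom.range_eq_map,
        MonoidHom.range_eq_top.2 (QuotientGroup.mk'_surjective N)]
    rw [← h1, hπ.perf, ← MonoidHom.range_eq_map, MonoidHom.range_eq_top.2 (QuotientGroup.mk'_surjective N)]
  have hexp : ∀ z ∈ πE.ker, z ^ 3 = 1 := by
    intro z hz
    obtain ⟨z, rfl⟩ := QuotientGroup.mk_surjective z
    have hz' : z ∈ π.ker := hz
    have h12 : z ^ 12 = 1 := by
      have h1 : (⟨z, hz'⟩ : π.ker) ^ Nat.card π.ker = 1 := pow_card_eq_one'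
      have h2 := congrArg Subtype.val h1
      rw [SubgroupClass.coe_pow] at h2
      obtain ⟨k, hk⟩ := hk
      rw [hk, pow_mul, show z ^ Nat.card π.ker = 1 from h2, one_pow]
    have h1 : z ^ 3 ∈ N := ⟨pow_mem hz' 3, by rw [← pow_mul]; exact h12⟩
    exact (QuotientGroup.eq_one_iff (z ^ 3)).2 h1
  have hcard : Nat.card πE.ker = 3 := by
    have hG : IsPGroup 3 πE.ker := fun z => ⟨1, Subtype.ext (by
      rw [pow_one]
      exact hexp z.1 z.2)⟩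
    obtain ⟨m, hm⟩ := IsPGroup.iff_card.1 hG
    have hdvd : Nat.card πE.ker ∣ 12 := by
      have h1 : πE.ker = π.ker.map (QuotientGroup.mk' N) := by
        ext z
        constructor
        · intro hz
          obtain ⟨z, rfl⟩ := QuotientGroup.mk_surjective z
          exact ⟨z, hz, rfl⟩
        · rintro ⟨z, hz, rfl⟩
          exact hz
      rw [h1]
      have h2 : Nat.card (π.ker.map (QuotientGroup.mk' N)) ∣ Nat.card π.ker :=
        Subgroup.card_dvd_of_surjective ((QuotientGroup.mk' N).subgroupMap π.ker)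
          ((QuotientGroup.mk' N).subgroupMap_surjective π.ker)
      exact h2.trans hk
    have hne : Nat.card πE.ker ≠ 1 := by
      intro h1
      have h2 := Subgroup.card_eq_one.1 h1
      have h4 : (ζ : L ⧸ N) ∈ πE.ker := hζ
      rw [h2, Subgroup.mem_bot] at h4
      have h5 := (QuotientGroup.eq_one_iff ζ).1 h4
      apply hζ1
      have h6 : ζ ^ 4 = ζ ^ 3 * ζ := pow_succ _ _
      rw [h5.2, h3, one_mul] at h6
      exact h6.symm
    rw [hm] at hdvd hne ⊢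
    have hm0 : m ≠ 0 := fun h => hne (by rw [h, pow_zero])
    have hm2 : m < 2 := by
      by_contra hcon
      have h1 : 3 ^ 2 ∣ 3 ^ m := pow_dvd_pow 3 (by omega)
      have h2 := h1.trans hdvd
      norm_num at h2
    have : m = 1 := by omega
    rw [this, pow_one]
  obtain ⟨p, hpc⟩ := CharP.exists K
  have : Fact p.Prime := ⟨(CharP.char_is_prime_or_zero K p).resolve_right (CharP.char_ne_zero_of_finite K p)⟩
  have R := RGDTwE6.rgd CoxeterMatrix.F₄.toCoxeterSystem hφ hqq p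
  obtain ⟨n, hn, ζ₀, hζ₀, hζ₀1, w, hw, b, hb, hnb⟩ := exists_fuse hK hφ hqq hsur hcen hcard hperf R
  have hnf := comm_f hφ hqq hP hf CoxeterMatrix.F₄.toCoxeterSystem R hn
  have hζ₀c : ∀ x, x * ζ₀ = ζ₀ * x := Subgroup.mem_center_iff.1 (hcen hζ₀)
  -- the lift of `f X`
  have key : ∀ c : L ⧸ N, πE c = f X → n * c * n⁻¹ = c := by
    intro c hcX
    have h1 : πE (c⁻¹ * (n * c * n⁻¹)) = 1 := by
      rw [map_mul, map_mul, map_mul, map_inv, map_inv, hcX, hnf X, inv_mul_cancel]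
    have h2 : c⁻¹ * (n * c * n⁻¹) ∈ πE.ker := h1
    have h4 := comm_seven (n := n) (c := c) (Subgroup.mem_center_iff.1 (hcen h2)) (hexp _ h2)
      (Subgroup.mem_center_iff.1 (hcen (show c ^ 7 ∈ πE.ker by rw [MonoidHom.mem_ker, map_pow, hcX, hfX7])))
      (by group)
    calc n * c * n⁻¹ = c * (c⁻¹ * (n * c * n⁻¹)) := by group
      _ = c := by rw [h4, mul_one]
  obtain ⟨y', hy'⟩ : ∃ y' : L ⧸ N, y' = (y : L ⧸ N) := ⟨_, rfl⟩
  have hπy : πE y' = s * f X := by rw [hy', hπE, hy, hs]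
  have hmain : ∃ ζ' ∈ πE.ker, ζ' ≠ 1 ∧ n * y' * n⁻¹ = y' * ζ' := by
    rcases unit_cases hK hφ hv hw with h5 | h5
    · refine ⟨ζ₀, hζ₀, hζ₀1, ?_⟩
      have hbs : πE b = s := by rw [hb, h5, hs]
      have h6 := key (b⁻¹ * y') (by rw [map_mul, map_inv, hbs, hπy]; group)
      calc n * y' * n⁻¹ = (n * b * n⁻¹) * (n * (b⁻¹ * y') * n⁻¹) := by group
        _ = b * (ζ₀ * (b⁻¹ * y')) := by rw [h6, hnb]; group
        _ = b * ((b⁻¹ * y') * ζ₀) := by rw [hζ₀c]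
        _ = _ := by group
    · refine ⟨ζ₀⁻¹, inv_mem hζ₀, inv_ne_one.2 hζ₀1, ?_⟩
      have hbs : πE b = s⁻¹ := by
        rw [hb, h5, hs, Cfsg.Agent.OddHalf.NI.Mult.dg_inv, map_inv]
      have h6 := key (b * y') (by rw [map_mul, hbs, hπy]; group)
      have h7 : n * b⁻¹ * n⁻¹ = (b * ζ₀)⁻¹ := by rw [← hnb]; group
      calc n * y' * n⁻¹ = (n * b⁻¹ * n⁻¹) * (n * (b * y') * n⁻¹) := by group
        _ = ζ₀⁻¹ * y' := by rw [h6, h7]; group
        _ = ζ₀⁻¹ * (y' * ζ₀) * ζ₀⁻¹ := by group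
        _ = _ := by rw [hζ₀c]; group
  obtain ⟨ζ', hζ', hζ'1, hk'⟩ := hmain
  have hζ'c : ∀ x, x * ζ' = ζ' * x := Subgroup.mem_center_iff.1 (hcen hζ')
  have h8 : (⟨(ζ : L ⧸ N), hζ⟩ : πE.ker) ∈ Subgroup.zpowers (⟨ζ', hζ'⟩ : πE.ker) :=
    mem_zpowers_of_prime_card hcard (fun h => hζ'1 (congrArg Subtype.val h))
  obtain ⟨m, hm⟩ := h8
  have hm' : ζ' ^ m = (ζ : L ⧸ N) := congrArg Subtype.val hm
  refine ⟨n ^ m, ?_⟩
  rw [← hy', ← hm']
  -- powers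
  have hpow : ∀ m : ℤ, n ^ m * y' * (n ^ m)⁻¹ = y' * ζ' ^ m := by
    have hnn : ∀ k : ℕ, n ^ k * y' * (n ^ k)⁻¹ = y' * ζ' ^ k := by
      intro k
      induction k with
      | zero => simp
      | succ k ih =>
        calc n ^ (k + 1) * y' * (n ^ (k + 1))⁻¹ = n * (n ^ k * y' * (n ^ k)⁻¹) * n⁻¹ := by rw [pow_succ']; group
          _ = (n * y' * n⁻¹) * (n * ζ' ^ k * n⁻¹) := by rw [ih]; group
          _ = y' * ζ' * ζ' ^ k := by
            rw [hk', (show Commute n (ζ' ^ k) from (show Commute n ζ' from hζ'c n).pow_right k).eq, mul_inv_cancel_right]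
          _ = _ := by rw [mul_assoc, ← pow_succ']
    intro m
    obtain ⟨k, rfl | rfl⟩ := Int.eq_nat_or_neg m
    · rw [zpow_natCast, zpow_natCast]
      exact hnn k
    · rw [zpow_neg, zpow_neg, zpow_natCast, zpow_natCast, inv_inv]
      have h9 := hnn k
      have h10 : Commute (n ^ k) (ζ' ^ k) := (show Commute n ζ' from hζ'c n).pow_pow k k
      have h11 : n ^ k * y' = y' * ζ' ^ k * n ^ k := by rw [← h9]; group
      have h12 : n ^ k * (y' * (ζ' ^ k)⁻¹) = y' * n ^ k := by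
        calc n ^ k * (y' * (ζ' ^ k)⁻¹) = (n ^ k * y') * (ζ' ^ k)⁻¹ := by group
          _ = y' * (ζ' ^ k * n ^ k) * (ζ' ^ k)⁻¹ := by rw [h11]; group
          _ = y' * n ^ k := by rw [← h10.eq]; group
      calc (n ^ k)⁻¹ * y' * n ^ k = (n ^ k)⁻¹ * (y' * n ^ k) := by group
        _ = _ := by rw [← h12]; group
  exact hpow m

end

section

variable {K : Type u} [Field K] [Fintype K] (hK : Fintype.card K = 4) {φ : K →+* K} (hφ : ∀ t, φ t = t ^ 2)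
  (hqq : ∀ t : K, (t ^ 2) ^ 2 = t)
  {P : Matrix.SpecialLinearGroup (Fin 3) K →* ↥(chevE6.group K)}
  (hP : ∀ a b (hab : a ≠ b) c, P (Matrix.SpecialLinearGroup.transvection hab c) =
      xc RGDTwE6.hp (vec chevE6 6 (r6 a b)) (((1 : ℤ) : K) * c))
  {f : Matrix.SpecialLinearGroup (Fin 3) (Fx φ 1) →* ↥(twistedE6 K 2)}
  (hf : ∀ A, inc K 2 (f A) = P (Matrix.SpecialLinearGroup.map (Fx φ 1).subtype A))
  {v : (Fx φ 2)ˣ} (hv : v ≠ 1) {X : Matrix.SpecialLinearGroup (Fin 3) (Fx φ 1)} (hX : X ^ 7 = 1)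
  (hXi : Irreducible (X : Matrix (Fin 3) (Fin 3) (Fx φ 1)).charpoly)

include hK hφ hqq hP hf hv hXi in
/-- the block element is not trivial -/
theorem f_ne : f X ≠ 1 := by
  intro h1
  obtain ⟨p, hpc⟩ := CharP.exists K
  have : Fact p.Prime := ⟨(CharP.char_is_prime_or_zero K p).resolve_right (CharP.char_ne_zero_of_finite K p)⟩
  have R := RGDTwE6.rgd CoxeterMatrix.F₄.toCoxeterSystem hφ hqq p
  have : Finite CoxeterMatrix.F₄.Group := Cfsg.Agent.Nodes.RGDFold.finite_W (hp := RGDTwE6.hp)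
    CoxeterMatrix.F₄.toCoxeterSystem RGDTwE6.isCartan RGDTwE6.foldData
  have C := Cfsg.Agent.H958.TS.TwCommon.coordP hφ hqq
  obtain ⟨h2, -⟩ := Cfsg.Agent.H928.Ore.TwRow.s_nf hφ hqq hP hf (lu_ne hv) (lu_sq hK hφ hv) (inc_s hK hφ hqq v)
    CoxeterMatrix.F₄.toCoxeterSystem hXi
  rw [h1, mul_one] at h2
  obtain ⟨s, hs⟩ : ∃ s, s = Q3 hφ hqq (dg v) := ⟨_, rfl⟩
  have hsT : s ∈ T K 2 := by rw [hs]; exact Cfsg.Agent.OddHalf.NI.Mult.dg_mem_T R C 3 v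
  rw [← hs] at h2
  have hr : IsRoot CoxeterMatrix.F₄.toCoxeterSystem RGDTwE6.isCartan (sr 1 : Fin 4 → ℤ) := isRoot_sr _ _ 1
  obtain ⟨m, hm⟩ : ∃ m, m = RGDTwE6.nn hφ (2 : Fin 4) := ⟨_, rfl⟩
  have hmr : Rp CoxeterMatrix.F₄.toCoxeterSystem R.nsys (CoxeterMatrix.F₄.toCoxeterSystem.simple 2) m := by
    rw [hm]; exact rp_simple _ R.nsys 2
  obtain ⟨u, hu⟩ : ∃ u, u = Cfsg.Agent.H958.TS.TwCommon.P hφ hqq 1 (up 1) := ⟨_, rfl⟩
  have hu1 : u ≠ 1 := by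
    intro h3
    have h4 : Cfsg.Agent.H958.TS.TwCommon.P hφ hqq 1 (up 1) = Cfsg.Agent.H958.TS.TwCommon.P hφ hqq 1 (up 0) := by
      rw [← hu, h3, Cfsg.Agent.OddHalf.NI.Mult.up_zero, map_one]
    exact one_ne_zero (Cfsg.Agent.H958.TS.TwCommon.P_up_inj hφ hqq 1 h4)
  have huX : u ∈ RGDTwE6.X φ 2 (sr 1) := by rw [hu]; exact C.mem_up 1 1
  have h3 := R.conj_mem hmr hr huX
  have hz : rep CoxeterMatrix.F₄.toCoxeterSystem RGDTwE6.isCartan (CoxeterMatrix.F₄.toCoxeterSystem.simple 2)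
      (sr 1 : Fin 4 → ℤ) = ![0, 1, 2, 0] := by
    rw [rep_simple]
    have : CoxeterGeom.refl RGDTwE6.A 2 (sr 1 : Fin 4 → ℤ) = ![0, 1, 2, 0] := by decide +kernel
    exact this
  have h4 : m * u * m⁻¹ ∈ VJ CoxeterMatrix.F₄.toCoxeterSystem RGDTwE6.isCartan (RGDTwE6.X φ 2) JR := by
    refine RGD.le_Sup (S := NotJ CoxeterMatrix.F₄.toCoxeterSystem RGDTwE6.isCartan JR)
      ⟨hr.act (CoxeterMatrix.F₄.toCoxeterSystem.simple 2), ?_, 2, ?_, ?_⟩ h3
    · rw [hz]; intro k; fin_cases k <;> decide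
    · rintro (h | h) <;> exact absurd h (by decide)
    · rw [hz]; decide
  have hmT : m⁻¹ * s * m ∈ T K 2 := by
    have h5 := (Subgroup.mem_normalizer_iff.1 (inv_mem hmr.mem_normalizer) s).1 hsT
    rwa [inv_inv] at h5
  have h5 := tor_two R C (i := 1) (fx_two hφ) hmT (up 1)
  rw [← hu] at h5
  have h6 : s * (m * u * m⁻¹) * s⁻¹ = m * u * m⁻¹ := by
    calc s * (m * u * m⁻¹) * s⁻¹ = m * ((m⁻¹ * s * m) * u * (m⁻¹ * s * m)⁻¹) * m⁻¹ := by group
      _ = _ := by rw [h5]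
  have h7 := h2 _ h4 h6
  apply hu1
  calc u = m⁻¹ * (m * u * m⁻¹) * m := by group
    _ = 1 := by rw [h7]; group

include hK hφ hqq hP hf hv hX hXi in
theorem order_x : orderOf (Q3 hφ hqq (dg v) * f X) = 21 := by
  have hsf : ∀ A, Q3 hφ hqq (dg v) * f A = f A * Q3 hφ hqq (dg v) :=
    Cfsg.Agent.H928.Ore.TwRow.s_comm hP hf (inc_s hK hφ hqq v)
  have hf1 := f_ne hK hφ hqq hP hf hv hXi
  have hs1 := s_ne hφ hqq hv
  have hs3 := s_cube hK hφ hqq v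
  have hf7 : f X ^ 7 = 1 := by rw [← map_pow, hX, map_one]
  have o3 : orderOf (Q3 hφ hqq (dg v)) = 3 := by
    have : Fact (Nat.Prime 3) := ⟨Nat.prime_three⟩
    exact orderOf_eq_prime hs3 hs1
  have o7 : orderOf (f X) = 7 := by
    have : Fact (Nat.Prime 7) := ⟨by norm_num⟩
    exact orderOf_eq_prime hf7 hf1
  have h1 := (show Commute (Q3 hφ hqq (dg v)) (f X) from hsf X).orderOf_mul_eq_mul_orderOf_of_coprime (by
    rw [o3, o7]; decide)
  rw [h1, o3, o7]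

end

/-- **The element of order `21`.** -/
theorem exists_x21 {F : Type u} [Field F] [Fintype F] (hF : Fintype.card F = 4) {φ : F →+* F} (hφ : ∀ t, φ t = t ^ 2) :
    ∃ x : H231.QF.KK F, x ∈ H231.QF.Lv φ H231.QF.j4 ∧ orderOf x = 21 ∧
      (∀ v ∈ H231.QF.V φ H231.QF.j4, x * v * x⁻¹ = v → v = 1) ∧
      (∀ v ∈ VNJ H231.QF.cs RGDTwE6.isCartan (H231.QF.X φ) H231.QF.j4, x * v * x⁻¹ = v → v = 1) ∧
      (∃ t, t * t = 1 ∧ t * x * t⁻¹ = x⁻¹) ∧
      ∀ (L : Type v) [Group L] [Finite L] (π : L →* H231.QF.KK F), PCE π → Nat.card π.ker ∣ 12 → ∀ y : L, π y = x →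
        ∀ ζ ∈ π.ker, ζ ^ 3 = 1 → ∃ k : L, k * y * k⁻¹ = y * ζ := by
  have hqq : ∀ t : F, (t ^ 2) ^ 2 = t := pow_qq hF
  obtain ⟨P, hP⟩ := exists_hom_D RGDTwE6.hp (K := F) (ε := 1) (by norm_num) rt6.1 rt6.2.1 rt6.2.2.1 rt6.2.2.2
  obtain ⟨f, hf⟩ := exists_f hφ hqq hP
  obtain ⟨v, hv⟩ : ∃ v : (Fx φ 2)ˣ, v ≠ 1 := by
    have h1 := card_units_fx hF hφ
    have : Nontrivial (Fx φ 2)ˣ := by
      have : Finite (Fx φ 2)ˣ := Nat.finite_of_card_ne_zero (by rw [h1]; decide)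
      rw [← Finite.one_lt_card_iff_nontrivial, h1]
      decide
    exact exists_ne 1
  obtain ⟨X, hX, hXi⟩ := exists_seven (F := Fx φ 1) (fx_two hφ) (Subtype.ext (two_zero hF))
  obtain ⟨p, hpc⟩ := CharP.exists F
  have : Fact p.Prime := ⟨(CharP.char_is_prime_or_zero F p).resolve_right (CharP.char_ne_zero_of_finite F p)⟩
  have R := RGDTwE6.rgd CoxeterMatrix.F₄.toCoxeterSystem hφ hqq p
  have : Finite CoxeterMatrix.F₄.Group := Cfsg.Agent.Nodes.RGDFold.finite_W (hp := RGDTwE6.hp)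
    CoxeterMatrix.F₄.toCoxeterSystem RGDTwE6.isCartan RGDTwE6.foldData
  have C := Cfsg.Agent.H958.TS.TwCommon.coordP hφ hqq
  have hsT : Q3 hφ hqq (dg v) ∈ T F 2 := Cfsg.Agent.OddHalf.NI.Mult.dg_mem_T R C 3 v
  have hZ := Cfsg.Agent.Nodes.ChevChart.center_eq_bot (Cfsg.Agent.S1054.result (F := F) chevE6 (by simp))
  have hJ : JR ⊆ H231.QF.j4 := by
    rintro k (rfl | rfl)
    · exact (by decide : (0 : Fin 4) ≠ 3)
    · exact (by decide : (1 : Fin 4) ≠ 3)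
  obtain ⟨n1, n2⟩ := Cfsg.Agent.H928.Ore.TwRow.s_nf hφ hqq hP hf (lu_ne hv) (lu_sq hF hφ hv) (inc_s hF hφ hqq v)
    CoxeterMatrix.F₄.toCoxeterSystem hXi
  obtain ⟨hreal, -⟩ := Cfsg.Agent.H928.Ore.TwRow.s_real hφ hqq hP hf (inc_s hF hφ hqq v) hZ hXi
  have hVJ : H231.QF.V φ H231.QF.j4 ≤ VJ CoxeterMatrix.F₄.toCoxeterSystem RGDTwE6.isCartan (RGDTwE6.X φ 2) JR :=
    RGD.Sup_mono fun _ hx => ⟨hx.1, hx.2.1, hx.2.2.imp fun _ hk => ⟨fun h => hk.1 (hJ h), hk.2⟩⟩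
  have hVNJ : VNJ H231.QF.cs RGDTwE6.isCartan (H231.QF.X φ) H231.QF.j4 ≤
      VNJ CoxeterMatrix.F₄.toCoxeterSystem RGDTwE6.isCartan (RGDTwE6.X φ 2) JR :=
    RGD.Sup_mono fun x hx => show -x ∈ NotJ _ _ JR from
      ⟨hx.1, hx.2.1, hx.2.2.imp fun _ hk => ⟨fun h => hk.1 (hJ h), hk.2⟩⟩
  refine ⟨Q3 hφ hqq (dg v) * f X, mul_mem (T_le_LJ hsT) (LJ_mono hJ (f_LJ hφ hqq hP hf _ X)),
    order_x hF hφ hqq hP hf hv hX hXi, fun w hw => n1 w (hVJ hw), fun w hw => n2 w (hVNJ hw), hreal, ?_⟩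
  intro L _ _ π hπ hk y hy ζ hζ h3
  exact fuse hF hφ hqq hP hf hv hX hπ hk hy hζ h3

end Cfsg.Agent.H584.F4.X21
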